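import Cfsg.Agent.PCore.AxB
import Cfsg.Agent.PCore.Lift
import Cfsg.Agent.SolvTwoCore.Basic
import Cfsg.Agent.CoprimeAction.Basic

/-! The `q'`-core of the centralizer of a `q`-element in a `p'`-group acted on by a `p`-group
with solvable commutator. -/

set_option autoImplicit false

namespace CfsgLib.QCoreLift

open scoped commutatorElement
open Subgroup

variable {G : Type*} [Group G]

theorem normalizer_le_char (X : Subgroup G) (Y : Subgroup X) [hY : Y.Characteristic] :
    normalizer (X : Set G) ≤ normalizer ((Y.map X.subtype : Subgroup G) : Set G) := by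
  have key : ∀ g ∈ normalizer (X : Set G), ∀ y ∈ Y.map X.subtype, g * y * g⁻¹ ∈ Y.map X.subtype := by
    rintro g hg _ ⟨y, hy, rfl⟩
    refine ⟨X.normalizerMonoidHom ⟨g, hg⟩ y, ?_, rfl⟩
    conv_lhs => rw [← characteristic_iff_map_eq.1 hY (X.normalizerMonoidHom ⟨g, hg⟩)]
    exact ⟨y, hy, rfl⟩
  intro g hg
  rw [mem_normalizer_iff]
  refine fun y => ⟨key g hg y, fun hy => ?_⟩
  have := key g⁻¹ (inv_mem hg) _ hy
  simpa [mul_assoc] using this

theorem comm_mem {A B : Subgroup G} (hB : B ≤ normalizer (A : Set G)) {a b : G} (ha : a ∈ A)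
    (hb : b ∈ B) : ⁅a, b⁆ ∈ A := by
  rw [commutatorElement_def, show a * b * a⁻¹ * b⁻¹ = a * (b * a⁻¹ * b⁻¹) by group]
  exact mul_mem ha ((mem_normalizer_iff.1 (hB hb) _).1 (inv_mem ha))

/-- The situation modulo the `q'`-core. -/
theorem core [Finite G] {p q : ℕ} [hp : Fact p.Prime] [hq : Fact q.Prime] (H P : Subgroup G)
    (hHn : H.Normal) (hHP : H ⊔ P = ⊤) (hP : IsPGroup p P) (hHp : (Nat.card H).Coprime p)
    (hsol : Group.IsSolvable ↥⁅H, P⁆) (Z : Subgroup G) (hZH : Z ≤ H) (hZ : IsPGroup q Z)
    (hbot : ∀ D : Subgroup G, D ≤ H → H ≤ normalizer (D : Set G) → (Nat.card D).Coprime q → D = ⊥)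
    (R S : Subgroup G) (hR : R ≤ H ⊓ centralizer (Z : Set G)) (hRq : (Nat.card R).Coprime q)
    (hRn : H ⊓ centralizer (Z : Set G) ≤ normalizer (R : Set G)) (hRP : P ≤ normalizer (R : Set G))
    (hS : S ≤ H ⊓ centralizer (P : Set G)) (hSq : (Nat.card S).Coprime q)
    (hSn : H ⊓ centralizer (P : Set G) ≤ normalizer (S : Set G)) :
    R ⊓ S = ⊥ ∧ ⁅R, P⁆ = ⊥ := by
  have hPH : P ≤ normalizer (H : Set G) := by
    rw [normalizer_eq_top]; exact le_top
  set K := ⁅H, P⁆ with hK
  have hKH : K ≤ H := CoprimeAction.commutator_le_of_normalizer hPH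
  haveI hKn : K.Normal := by
    rw [← normalizer_eq_top_iff, eq_top_iff, ← hHP]
    exact sup_le CoprimeAction.self_le_normalizer_commutator
      (CoprimeAction.le_normalizer_commutator hPH)
  set Q := (Cfsg.pCore q K).map K.subtype with hQdef
  have hQK : Q ≤ K := map_subtype_le _
  have hQp : IsPGroup q Q := (PCore.isPGroup_pCore q K).map _
  haveI hQn : Q.Normal := by
    haveI := PCore.pCore_characteristic q K
    rw [← normalizer_eq_top_iff, eq_top_iff]
    exact le_trans (by rw [normalizer_eq_top]) (normalizer_le_char K _)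
  have hCQ : K ⊓ centralizer (Q : Set G) ≤ Q := by
    intro x hx
    refine ⟨⟨x, hx.1⟩, SolvTwoCore.centralizer_pCore_le (G := K) (p := q) ?_
      (mem_centralizer_iff.2 fun y hy => Subtype.ext
        (mem_centralizer_iff.1 hx.2 (y : G) (mem_map_of_mem K.subtype hy))), rfl⟩
    intro M hM hMc
    have h1 : M ≤ Cfsg.pPrimeCore q K := PCore.le_pPrimeCore hM hMc
    have h2 : (Cfsg.pPrimeCore q K).map K.subtype = ⊥ := by
      refine hbot _ ((map_subtype_le _).trans hKH) ?_ ?_
      · haveI := PCore.pPrimeCore_characteristic q K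
        exact le_trans (by rw [normalizer_eq_top]; exact le_top) (normalizer_le_char K _)
      · rw [card_map_of_injective Subtype.val_injective]; exact PCore.pPrimeCore_coprime q K
    rw [map_eq_bot_iff_of_injective _ Subtype.val_injective] at h2
    exact le_bot_iff.1 (h2 ▸ h1)
  have hRQ : R ≤ centralizer (Q : Set G) := by
    refine PCore.thompson_AxB (A := Z) hZ hRq hQp
      (fun a ha b hb => mem_centralizer_iff.1 (hR hb).2 a ha)
      (by rw [normalizer_eq_top]; exact le_top) (by rw [normalizer_eq_top]; exact le_top) ?_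
    intro r hr
    refine mem_centralizer_iff.2 fun x hx => ?_
    have hxH : x ∈ H ⊓ centralizer (Z : Set G) := ⟨hKH (hQK hx.1), hx.2⟩
    have h1 : ⁅r, x⁆ ∈ R := comm_mem hRn hr hxH
    have h2 : ⁅r, x⁆ ∈ Q := by
      rw [commutatorElement_def]
      exact mul_mem (hQn.conj_mem x hx.1 r) (inv_mem hx.1)
    have h3 : ⁅r, x⁆ ∈ Q ⊓ R := ⟨h2, h1⟩
    rw [PCore.inf_eq_bot_of_isPGroup_of_coprime hQp hRq, mem_bot,
      commutatorElement_eq_one_iff_mul_comm] at h3
    exact h3.symm
  refine ⟨?_, ?_⟩
  · set D := H ⊓ centralizer (Q : Set G) with hD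
    haveI hDn : D.Normal := inferInstance
    have hPD : P ≤ normalizer (D : Set G) := by rw [normalizer_eq_top]; exact le_top
    have hcop : (Nat.card P).Coprime (Nat.card D) := by
      obtain ⟨n, hn⟩ := IsPGroup.iff_card.1 hP
      rw [hn]
      exact Nat.Coprime.pow_left n ((hHp.coprime_dvd_left (card_dvd_of_le inf_le_left)).symm)
    have hPsol : Group.IsSolvable P := by
      haveI := hP.isNilpotent; infer_instance
    have hE : ⁅D, P⁆ ≤ Q := le_trans
      (le_inf (commutator_mono inf_le_left le_rfl)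
        ((CoprimeAction.commutator_le_of_normalizer hPD).trans inf_le_right)) hCQ
    set S' := S ⊓ D
    have hDS : D ≤ normalizer (S' : Set G) := by
      intro d hd
      obtain ⟨n, hn, c, hc, rfl⟩ :=
        CoprimeAction.exists_commutator_mul_centralizer hPD hcop (Or.inl hPsol) hd
      refine mul_mem (centralizer_le_normalizer _ ?_) ?_
      · refine mem_centralizer_iff.2 fun x hx => ?_
        exact (mem_centralizer_iff.1 (show x ∈ centralizer (Q : Set G) from hx.2.2) n (hE hn)).symm
      · have h1 : c ∈ normalizer (S : Set G) := hSn ⟨hc.1.1, hc.2⟩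
        rw [mem_normalizer_iff] at h1 ⊢
        intro x
        have hDc : x ∈ D ↔ c * x * c⁻¹ ∈ D :=
          ⟨fun h => hDn.conj_mem x h c, fun h => by
            simpa [mul_assoc] using hDn.conj_mem _ h c⁻¹⟩
        exact and_congr (h1 x) hDc
    have h1 : S'.subgroupOf D ≤ Cfsg.pPrimeCore q D := by
      refine PCore.le_pPrimeCore (normal_subgroupOf_of_le_normalizer hDS) ?_
      exact (hSq.coprime_dvd_left (card_dvd_of_le inf_le_left)).coprime_dvd_left
        (PCore.card_subgroupOf_dvd _ _)
    have h2 : (Cfsg.pPrimeCore q D).map D.subtype = ⊥ := by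
      refine hbot _ ((map_subtype_le _).trans inf_le_left) ?_ ?_
      · haveI := PCore.pPrimeCore_characteristic q D
        exact le_trans (by rw [normalizer_eq_top]; exact le_top) (normalizer_le_char D _)
      · rw [card_map_of_injective Subtype.val_injective]; exact PCore.pPrimeCore_coprime q D
    rw [eq_bot_iff]
    intro x hx
    have hxD : x ∈ D := ⟨(hS hx.2).1, hRQ hx.1⟩
    have : x ∈ (Cfsg.pPrimeCore q D).map D.subtype :=
      ⟨⟨x, hxD⟩, h1 ⟨hx.2, hxD⟩, rfl⟩
    rwa [h2] at this
  · rw [eq_bot_iff]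
    have h1 : ⁅R, P⁆ ≤ R := CoprimeAction.commutator_le_of_normalizer hRP
    intro x hx
    have h2 : x ∈ Q ⊓ R :=
      ⟨hCQ ⟨commutator_mono (hR.trans inf_le_left) le_rfl hx, hRQ (h1 hx)⟩, h1 hx⟩
    rwa [PCore.inf_eq_bot_of_isPGroup_of_coprime hQp hRq] at h2

/-- `O_{q'}` of the centralizer of `z` meets that of the centralizer of `P` inside `O_{q'}(H)`,
and its commutator with `P` lies there as well. -/
theorem main [Finite G] {p q : ℕ} [hp : Fact p.Prime] [hq : Fact q.Prime] (H P : Subgroup G)
    [hHn : H.Normal] (hHP : H ⊔ P = ⊤) (hP : IsPGroup p P) (hHp : (Nat.card H).Coprime p)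
    (hsol : Group.IsSolvable ↥⁅H, P⁆) (z : G) (hzH : z ∈ H)
    (hzP : z ∈ centralizer (P : Set G)) (hz : ∃ k : ℕ, orderOf z = q ^ k) :
    ((Cfsg.pPrimeCore q ↥(H ⊓ centralizer ({z} : Set G))).map (H ⊓ centralizer ({z} : Set G)).subtype ⊓
      (Cfsg.pPrimeCore q ↥(H ⊓ centralizer (P : Set G))).map (H ⊓ centralizer (P : Set G)).subtype) ⊔
    ⁅(Cfsg.pPrimeCore q ↥(H ⊓ centralizer ({z} : Set G))).map (H ⊓ centralizer ({z} : Set G)).subtype, P⁆ ≤
    (Cfsg.pPrimeCore q ↥H).map H.subtype := by
  set X := H ⊓ centralizer ({z} : Set G) with hX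
  set Y := H ⊓ centralizer (P : Set G) with hY
  set R := (Cfsg.pPrimeCore q X).map X.subtype with hR
  set S := (Cfsg.pPrimeCore q Y).map Y.subtype with hS
  set N := (Cfsg.pPrimeCore q H).map H.subtype with hN
  haveI := PCore.pPrimeCore_characteristic q X
  haveI := PCore.pPrimeCore_characteristic q Y
  haveI := PCore.pPrimeCore_characteristic q H
  haveI hNn : N.Normal := inferInstance
  have hNH : N ≤ H := map_subtype_le _
  have hNq : (Nat.card N).Coprime q := by
    rw [hN, card_map_of_injective Subtype.val_injective]; exact PCore.pPrimeCore_coprime q H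
  set f := QuotientGroup.mk' N with hf
  have hfs : Function.Surjective f := QuotientGroup.mk'_surjective N
  set Z := zpowers z with hZdef
  have hZ : IsPGroup q Z := by
    obtain ⟨k, hk⟩ := hz
    exact IsPGroup.of_card (n := k) (by rw [hZdef, Nat.card_zpowers, hk])
  have hZc : centralizer (Z : Set G) = centralizer ({z} : Set G) := by
    rw [hZdef, zpowers_eq_closure, centralizer_closure]
  have hinf : ∀ C : Subgroup G, H.map f ⊓ C.map f = (H ⊓ C).map f := by
    intro C
    refine le_antisymm ?_ (le_inf (map_mono inf_le_left) (map_mono inf_le_right))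
    rintro _ ⟨⟨h, hh, rfl⟩, c, hc, hce⟩
    refine ⟨c, ⟨?_, hc⟩, hce⟩
    have : c⁻¹ * h ∈ N := QuotientGroup.eq.1 hce
    have h2 := mul_mem hh (inv_mem (hNH this))
    simpa using h2
  have hcard : ∀ L : Subgroup G, Nat.card (L.map f) ∣ Nat.card L := fun L => card_map_dvd L f
  have key := core (p := p) (q := q) (H.map f) (P.map f) (hHn.map f hfs)
    (by rw [← Subgroup.map_sup, hHP, ← MonoidHom.range_eq_map, MonoidHom.range_eq_top.2 hfs])
    (hP.map f) (hHp.coprime_dvd_left (hcard H))
    (by
      rw [← map_commutator]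
      haveI := hsol
      exact Group.isSolvable_of_surjective (f.subgroupMap_surjective _))
    (Z.map f) (map_mono (zpowers_le.2 hzH)) (hZ.map f)
    (fun D hDH hDn hDq => by
      have hle : D.comap f ≤ H := by
        intro x hx
        obtain ⟨h, hh, he⟩ := hDH hx
        have : h⁻¹ * x ∈ N := QuotientGroup.eq.1 he
        simpa using mul_mem hh (hNH this)
      have hnorm : H ≤ normalizer ((D.comap f : Subgroup G) : Set G) := by
        intro h hh
        have := (mem_normalizer_iff.1 (hDn (mem_map_of_mem f hh)))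
        refine mem_normalizer_iff.2 fun x => ?_
        simpa only [mem_comap, map_mul, map_inv] using this (f x)
      have h1 : (D.comap f).subgroupOf H ≤ Cfsg.pPrimeCore q H := by
        refine PCore.le_pPrimeCore (normal_subgroupOf_of_le_normalizer hnorm)
          (Nat.Coprime.coprime_dvd_left (PCore.card_subgroupOf_dvd _ _) ?_)
        rw [PCore.card_comap_mk']
        exact Nat.Coprime.mul_left hNq hDq
      rw [eq_bot_iff]
      intro d hd
      obtain ⟨x, rfl⟩ := hfs d
      refine mem_bot.2 ((QuotientGroup.eq_one_iff x).2 ?_)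
      exact ⟨⟨x, hle hd⟩, h1 (show x ∈ D.comap f from hd), rfl⟩)
    (R.map f) (S.map f)
    (by
      rw [PCore.centralizer_map_eq N hNq Z hZ, hinf, hZc]
      exact map_mono (map_subtype_le _))
    ((PCore.pPrimeCore_coprime q X).coprime_dvd_left
      ((hcard R).trans (by rw [hR, card_map_of_injective Subtype.val_injective])))
    (by
      rw [PCore.centralizer_map_eq N hNq Z hZ, hinf, hZc]
      exact (map_mono (Subgroup.le_normalizer.trans (normalizer_le_char X _))).trans
        (le_normalizer_map f))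
    (by
      refine (map_mono ?_).trans (le_normalizer_map f)
      refine le_trans ?_ (normalizer_le_char X _)
      intro a ha
      have hc : a ∈ normalizer ((centralizer ({z} : Set G) : Subgroup G) : Set G) := by
        refine le_normalizer ?_
        exact mem_centralizer_iff.2 (by
          rintro y rfl
          exact (mem_centralizer_iff.1 hzP a ha).symm)
      rw [mem_normalizer_iff] at hc ⊢
      intro x
      exact and_congr ⟨fun h => hHn.conj_mem x h a, fun h => by
        simpa [mul_assoc] using hHn.conj_mem _ h a⁻¹⟩ (hc x))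
    (by
      have := (PCore.pPrimeCore_coprime q Y)
      rw [PCore.centralizer_map_eq (p := p) N
        (hHp.coprime_dvd_left (card_dvd_of_le hNH)) P hP, hinf]
      exact map_mono (map_subtype_le _))
    ((PCore.pPrimeCore_coprime q Y).coprime_dvd_left
      ((hcard S).trans (by rw [hS, card_map_of_injective Subtype.val_injective])))
    (by
      rw [PCore.centralizer_map_eq (p := p) N
        (hHp.coprime_dvd_left (card_dvd_of_le hNH)) P hP, hinf]
      exact (map_mono (Subgroup.le_normalizer.trans (normalizer_le_char Y _))).trans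
        (le_normalizer_map f))
  have hker : f.ker = N := QuotientGroup.ker_mk' N
  rw [← hker, ← Subgroup.map_eq_bot_iff, Subgroup.map_sup, map_commutator, key.2, sup_bot_eq]
  exact le_bot_iff.1 ((map_inf_le _ _ f).trans key.1.le)

end CfsgLib.QCoreLift
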